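import Cfsg.Agent.H345.RG.Fpr
import Cfsg.Agent.H763.Cls.Tool

/-!
# Words in permutation models: conjugates generating a group (helper345, S3509 sporadic block)

`N ≤ Perm (Fin n)` with tables `tabs` of letters (`Tabs w N tabs`) and a base `bs` (`Base N bs`); a word `l : List ℕ` has the
value `va ht l : N`; checks on the base:

* `cPow l k = true → va l ^ k = 1`, `cNe l k = true → va l ^ k ≠ 1`;
* for the letter `i` and pairs `(c, c')` of words with `va c' = (va c)⁻¹` (check `cInv`): the words over the conjugates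
  `y_j = c_j i c_j'` have values in `Gen (va [i]) (cs.map va)` (`ex_mem`).
-/

set_option autoImplicit false

namespace Cfsg.Agent.H345.RG

open Equiv Cfsg.Agent.H123.Cls Cfsg.Agent.H763.Cls Cfsg.Agent.Lib.BitNetSimple

section

variable {n w : ℕ} {N : Subgroup (Perm (Fin n))} {tabs bs : List ℕ}

/-- the letter `i` -/
noncomputable def lt (ht : Tabs w N tabs) (i : ℕ) : N :=
  open Classical in if h : i < tabs.length then ⟨(ht i h).choose, (ht i h).choose_spec.1⟩ else 1

theorem lt_apply (ht : Tabs w N tabs) {i : ℕ} (h : i < tabs.length) (p : Fin n) :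
    ((lt ht i : Perm (Fin n)) p : ℕ) = lk w (nth tabs i) p := by
  unfold lt
  rw [dif_pos h]
  exact (ht i h).choose_spec.2 p

/-- the value of a word -/
noncomputable def va (ht : Tabs w N tabs) (l : List ℕ) : N := (l.map (lt ht)).prod

theorem va_nil (ht : Tabs w N tabs) : va ht [] = 1 := rfl

theorem va_append (ht : Tabs w N tabs) (l m : List ℕ) : va ht (l ++ m) = va ht l * va ht m := by
  simp [va]

theorem va_cons (ht : Tabs w N tabs) (i : ℕ) (l : List ℕ) : va ht (i :: l) = lt ht i * va ht l := by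
  simp [va]

theorem va_one (ht : Tabs w N tabs) (i : ℕ) : va ht [i] = lt ht i := by simp [va]

theorem va_apply (ht : Tabs w N tabs) {l : List ℕ} (hl : ∀ x ∈ l, x < tabs.length) (p : Fin n) :
    ((va ht l : Perm (Fin n)) p : ℕ) = evw w tabs l p := by
  induction l with
  | nil => rfl
  | cons i l ih =>
    rw [va_cons, Subgroup.coe_mul, Perm.mul_apply, lt_apply ht (hl i List.mem_cons_self),
      ih fun x hx => hl x (List.mem_cons_of_mem _ hx), evw_cons]

theorem va_pow_apply (ht : Tabs w N tabs) {l : List ℕ} (hl : ∀ x ∈ l, x < tabs.length) (k : ℕ) (p : Fin n) :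
    (((va ht l ^ k : N) : Perm (Fin n)) p : ℕ) = evn w tabs l k p := by
  rw [Subgroup.coe_pow]
  exact Val.evn (N := N) ⟨(va ht l).2, va_apply ht hl⟩ k p

/-- the `k`-th power of the word is not trivial on the base -/
noncomputable def cNe (w : ℕ) (tabs bs l : List ℕ) (k : ℕ) : Bool :=
  band (chkL tabs.length l) (Bool.rec true false (allL bs fun b => Nat.beq (evn w tabs l k b) b))

theorem allL_of {l : List ℕ} {f : ℕ → Bool} (h : ∀ x ∈ l, f x = true) : allL l f = true := by
  induction l with
  | nil => rfl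
  | cons y l ih =>
    show band (f y) (allL l f) = true
    exact band_eq.2 ⟨h y List.mem_cons_self, ih fun x hx => h x (List.mem_cons_of_mem _ hx)⟩

theorem pow_eq_one (ht : Tabs w N tabs) (hb : Base N bs) {l : List ℕ} {k : ℕ} (h : chkPow w tabs bs l k = true) :
    va ht l ^ k = 1 := by
  obtain ⟨h1, h2⟩ := band_true h
  apply Subtype.ext
  refine hb.2 _ (va ht l ^ k).2 fun b hbb => Fin.ext ?_
  rw [va_pow_apply ht (chkL_iff _ l h1)]
  exact Nat.eq_of_beq_eq_true (allL_iff h2 b hbb)

theorem pow_ne_one (ht : Tabs w N tabs) (hb : Base N bs) {l : List ℕ} {k : ℕ} (h : cNe w tabs bs l k = true) :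
    va ht l ^ k ≠ 1 := by
  obtain ⟨h1, h2⟩ := band_true h
  intro h3
  have h4 : (allL bs fun b => Nat.beq (evn w tabs l k b) b) = true := by
    apply allL_of
    intro b hbb
    have h5 := va_pow_apply ht (chkL_iff _ l h1) k ⟨b, hb.1 b hbb⟩
    rw [h3] at h5
    have h6 : b = evn w tabs l k b := h5
    rw [← h6]
    exact Nat.beq_refl b
  rw [h4] at h2
  exact Bool.noConfusion h2

/-- `k` times the word -/
def rep (l : List ℕ) : ℕ → List ℕ
  | 0 => []
  | k + 1 => rep l k ++ l

theorem va_rep (ht : Tabs w N tabs) (l : List ℕ) (k : ℕ) : va ht (rep l k) = va ht l ^ k := by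
  induction k with
  | zero => rw [rep, va_nil, pow_zero]
  | succ k ih => rw [rep, va_append, ih, pow_succ]

/-! ### conjugates of a letter -/

/-- the words of the conjugates -/
def yw (i : ℕ) (cs : List (List ℕ × List ℕ)) : List (List ℕ) := cs.map fun c => c.1 ++ ([i] ++ c.2)

/-- substitution -/
def ex (i : ℕ) (cs : List (List ℕ × List ℕ)) (u : List ℕ) : List ℕ := u.flatMap fun j => (yw i cs).getD j []

theorem ex_append (i : ℕ) (cs : List (List ℕ × List ℕ)) (u v : List ℕ) : ex i cs (u ++ v) = ex i cs u ++ ex i cs v := by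
  simp [ex]

theorem ex_rep (i : ℕ) (cs : List (List ℕ × List ℕ)) (u : List ℕ) (k : ℕ) : ex i cs (rep u k) = rep (ex i cs u) k := by
  induction k with
  | zero => rfl
  | succ k ih => rw [rep, ex_append, ih, rep]

/-- the check of the inverses -/
noncomputable def cInv (w : ℕ) (tabs bs : List ℕ) (cs : List (List ℕ × List ℕ)) : Bool :=
  List.rec true (fun c _ ih => band (chkPow w tabs bs (c.1 ++ c.2) 1) ih) cs

theorem cInv_iff (ht : Tabs w N tabs) (hb : Base N bs) {cs : List (List ℕ × List ℕ)} (h : cInv w tabs bs cs = true) :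
    ∀ c ∈ cs, va ht c.2 = (va ht c.1)⁻¹ := by
  induction cs with
  | nil => intro c hc; exact absurd hc List.not_mem_nil
  | cons d cs ih =>
    obtain ⟨h1, h2⟩ := band_true (show band (chkPow w tabs bs (d.1 ++ d.2) 1) (cInv w tabs bs cs) = true from h)
    intro c hc
    rcases List.mem_cons.1 hc with rfl | hc
    · have h3 := pow_eq_one ht hb h1
      rw [pow_one, va_append] at h3
      exact eq_inv_of_mul_eq_one_right h3
    · exact ih h2 c hc

theorem ex_mem (ht : Tabs w N tabs) (hb : Base N bs) (i : ℕ) {cs : List (List ℕ × List ℕ)}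
    (h : cInv w tabs bs cs = true) (u : List ℕ) :
    va ht (ex i cs u) ∈ Gen (lt ht i) (cs.map fun c => va ht c.1) := by
  have h0 := cInv_iff ht hb h
  induction u with
  | nil => exact one_mem _
  | cons j u ih =>
    have e : ex i cs (j :: u) = (yw i cs).getD j [] ++ ex i cs u := by simp [ex]
    rw [e, va_append]
    refine mul_mem ?_ ih
    rcases lt_or_ge j cs.length with hj | hj
    · have h1 : (yw i cs).getD j [] = cs[j].1 ++ ([i] ++ cs[j].2) := by
        simp [yw, List.getD_eq_getElem?_getD, hj]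
      rw [h1, va_append, va_append, va_one, h0 _ (List.getElem_mem hj), ← mul_assoc]
      exact Subgroup.subset_closure ⟨_, List.mem_map.2 ⟨cs[j], List.getElem_mem hj, rfl⟩, rfl⟩
    · have h1 : (yw i cs).getD j [] = [] := by
        simp [yw, List.getD_eq_getElem?_getD, hj]
      rw [h1]
      exact one_mem _

/-! ### generation by conjugates, independent of the representative -/

/-- `k` conjugates of `g` under `N` generate `N` -/
def GP (N : Subgroup (Perm (Fin n))) (k : ℕ) (g : Perm (Fin n)) : Prop :=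
  ∃ L : List (Perm (Fin n)), L.length = k ∧ (∀ c ∈ L, c ∈ N) ∧ Gen g L = N

theorem Gen_map {G H : Type*} [Group G] [Group H] (f : G →* H) (x : G) (L : List G) :
    (Gen x L).map f = Gen (f x) (L.map f) := by
  rw [Gen, Gen, MonoidHom.map_closure]
  congr 1
  ext y
  constructor
  · rintro ⟨_, ⟨c, hc, rfl⟩, rfl⟩
    exact ⟨f c, List.mem_map.2 ⟨c, hc, rfl⟩, by simp⟩
  · rintro ⟨d, hd, rfl⟩
    obtain ⟨c, hc, rfl⟩ := List.mem_map.1 hd
    exact ⟨c * x * c⁻¹, ⟨c, hc, rfl⟩, by simp⟩

theorem GP.conj {A : Subgroup (Perm (Fin n))} (hnA : ∀ a ∈ A, ∀ x ∈ N, a * x * a⁻¹ ∈ N) {k : ℕ} {g b : Perm (Fin n)}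
    (h : GP N k g) (hb : b ∈ A) : GP N k (b * g * b⁻¹) := by
  obtain ⟨L, h1, h2, h3⟩ := h
  refine ⟨L.map (fun c => b * c * b⁻¹), by rw [List.length_map, h1], fun c hc => ?_, ?_⟩
  · obtain ⟨d, hd, rfl⟩ := List.mem_map.1 hc
    exact hnA b hb d (h2 d hd)
  · have h4 := Gen_map (MulAut.conj b).toMonoidHom g L
    rw [h3] at h4
    have h5 : N.map (MulAut.conj b).toMonoidHom = N := by
      apply le_antisymm
      · rintro _ ⟨x, hx, rfl⟩
        exact hnA b hb x hx
      · intro x hx
        refine ⟨b⁻¹ * x * b, ?_, ?_⟩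
        · have := hnA b⁻¹ (A.inv_mem hb) x hx
          rwa [inv_inv] at this
        · show b * (b⁻¹ * x * b) * b⁻¹ = x
          group
    rw [h5] at h4
    exact h4.symm

/-- from a subgroup of `N` (as a group) -/
theorem GP.of_gen {g : N} {L : List N} (h : Gen g L = ⊤) : GP N L.length (g : Perm (Fin n)) := by
  refine ⟨L.map N.subtype, List.length_map _, fun c hc => ?_, ?_⟩
  · obtain ⟨d, -, rfl⟩ := List.mem_map.1 hc
    exact d.2
  · have h1 := Gen_map N.subtype g L
    rw [h, ← MonoidHom.range_eq_map, Subgroup.range_subtype] at h1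
    exact h1.symm

/-- to a group isomorphic to `N` -/
theorem GP.gen {S : Type*} [Group S] (e : S ≃* N) {k : ℕ} {x : S} (h : GP N k (e x : Perm (Fin n))) :
    ∃ L : List S, L.length = k ∧ Gen x L = ⊤ := by
  obtain ⟨L, h1, h2, h3⟩ := h
  let f : S →* Perm (Fin n) := N.subtype.comp e.toMonoidHom
  have hf : Function.Injective f := N.subtype_injective.comp e.injective
  have hL : ∀ L : List (Perm (Fin n)), (∀ c ∈ L, c ∈ N) → ∃ L' : List S, L'.map f = L := by
    intro L
    induction L with
    | nil => exact fun _ => ⟨[], rfl⟩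
    | cons c L ih =>
      intro hc
      obtain ⟨L', hL'⟩ := ih fun d hd => hc d (List.mem_cons_of_mem _ hd)
      refine ⟨e.symm ⟨c, hc c List.mem_cons_self⟩ :: L', ?_⟩
      rw [List.map_cons, hL']
      congr 1
      show ((e (e.symm ⟨c, _⟩) : N) : Perm (Fin n)) = c
      rw [MulEquiv.apply_symm_apply]
  obtain ⟨L', rfl⟩ := hL L h2
  refine ⟨L', by rw [← h1, List.length_map], ?_⟩
  have h4 := Gen_map f x L'
  have h5 : Gen (f x) (L'.map f) = N := h3
  rw [h5] at h4
  rw [eq_top_iff]
  intro s _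
  have h6 : f s ∈ (Gen x L').map f := by rw [h4]; exact (e s).2
  obtain ⟨t, ht, hts⟩ := h6
  rwa [← hf hts]

end

end Cfsg.Agent.H345.RG
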